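import Cfsg.Agent.H770.Hen.Calc
import Mathlib.GroupTheory.PGroup

/-!
# S5175, sections L and J3: first coordinates of `V` (helper770)
-/

set_option autoImplicit false

namespace Cfsg.Agent.H770.Hen

open Cfsg Cfsg.FusionSystem Cfsg.Agent.H802 Cfsg.Agent.H756.HM

/-- `V ≅ K²` with `E = SL₂(K)`, and `V'` acting by upper unitriangular matrices. -/
structure Pre {Ω : Type*} [Group Ω] (V V' : Subgroup Ω) (E : Subgroup (MulAut V)) (K : Type) [Field K] where
  f : K → K → Ω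
  add : ∀ c a c' a', f (c + c') (a + a') = f c a * f c' a'
  inj : ∀ c a, f c a = 1 → c = 0 ∧ a = 0
  mem : ∀ v, v ∈ V ↔ ∃ c a, v = f c a
  act : ∀ w ∈ V', ∃ t, ∀ c a, w * f c a * w⁻¹ = f (c + t * a) a
  E1 : ∀ e ∈ E, ∃ p q r s : K, p * s - q * r = 1 ∧ ∀ (c a : K) (h : f c a ∈ V),
    ((e ⟨f c a, h⟩ : V) : Ω) = f (p * c + q * a) (r * c + s * a)
  E2 : ∀ p q r s : K, p * s - q * r = 1 → ∃ e ∈ E, ∀ (c a : K) (h : f c a ∈ V),
    ((e ⟨f c a, h⟩ : V) : Ω) = f (p * c + q * a) (r * c + s * a)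

/-- a matrix of determinant one with given first column -/
theorem exists_sl {K : Type} [Field K] (v : Fin 2 → K) (hv : v ≠ 0) :
    ∃ M : Matrix.SpecialLinearGroup (Fin 2) K, (M : Matrix (Fin 2) (Fin 2) K).mulVec ![1, 0] = v := by
  by_cases h0 : v 0 = 0
  · have h1 : v 1 ≠ 0 := by
      intro h1
      apply hv
      ext i
      fin_cases i
      · exact h0
      · exact h1
    refine ⟨⟨!![0, -(v 1)⁻¹; v 1, 0], ?_⟩, ?_⟩
    · rw [Matrix.det_fin_two_of]
      field_simp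
      ring
    · ext i
      fin_cases i
      · simp [Matrix.mulVec, h0]
      · simp [Matrix.mulVec]
  · refine ⟨⟨!![v 0, 0; v 1, (v 0)⁻¹], ?_⟩, ?_⟩
    · rw [Matrix.det_fin_two_of]
      field_simp
      ring
    · ext i
      fin_cases i
      · simp [Matrix.mulVec]
      · simp [Matrix.mulVec]

theorem sl_mulVec {K : Type} [Field K] (M : Matrix (Fin 2) (Fin 2) K) (c a : K) :
    M.mulVec ![c, a] = ![M 0 0 * c + M 0 1 * a, M 1 0 * c + M 1 1 * a] := by
  ext i
  fin_cases i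
  · simp [Matrix.mulVec, dotProduct, Fin.sum_univ_two]
  · simp [Matrix.mulVec, dotProduct, Fin.sum_univ_two]

theorem exists_pre {Ω : Type*} [Group Ω] {S : Subgroup Ω} [Finite S] (hS : IsPGroup 2 S)
    {F : FusionSystem S} {K : Type} [Field K] [Fintype K] {V T : Subgroup Ω} {x : Ω} (B : Big F K V T x)
    (hD : fixS V B.E = ⊥) : Nonempty (Pre V (cj x V) B.E K) := by
  classical
  have hfp : Fact (Nat.Prime 2) := ⟨Nat.prime_two⟩
  have hVfin : Finite V := finite_of_le B.V_le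
  -- ψ is an isomorphism
  have hinj : Function.Injective B.ψ := by
    rw [injective_iff_map_eq_one]
    intro v hv
    have h1 := (B.ψ_ker v).1 hv
    rw [hD, Subgroup.mem_bot] at h1
    exact Subtype.ext h1
  let ψe : V ≃* Multiplicative (Fin 2 → K) := MulEquiv.ofBijective B.ψ ⟨hinj, B.ψ_surj⟩
  have hψe : ∀ v, ψe v = B.ψ v := fun _ => rfl
  have hcardV : Nat.card V = (2 ^ B.n) ^ 2 := by
    rw [Nat.card_congr ψe.toEquiv, Nat.card_congr Multiplicative.toAdd, Nat.card_eq_fintype_card,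
      Fintype.card_fun, Fintype.card_fin, B.hK]
  -- a fixed point
  set A := autInducedBy (cj x V) V with hA
  have hVx : cj x V ≤ S := by
    rintro _ ⟨v, hv, rfl⟩
    exact S.mul_mem (S.mul_mem B.x_mem (B.V_le hv)) (S.inv_mem B.x_mem)
  have hAp : IsPGroup 2 A := isPGroup_autInducedBy (hS.to_le hVx) V
  have hfix : ∃ u : V, u ≠ 1 ∧ ∀ α ∈ A, α u = u := by
    have h1 : (1 : V) ∈ MulAction.fixedPoints A V := by
      intro α
      exact map_one (α : MulAut V)
    have h2 : 2 ∣ Nat.card V := by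
      rw [hcardV]
      refine dvd_pow ?_ two_ne_zero
      exact dvd_pow_self 2 (by have := B.hn; omega)
    obtain ⟨u, hu, hne⟩ := hAp.exists_fixed_point_of_prime_dvd_card_of_fixed_point V h2 h1
    exact ⟨u, hne.symm, fun α hα => hu ⟨α, hα⟩⟩
  obtain ⟨u, hu1, hufix⟩ := hfix
  set u0 : Fin 2 → K := Multiplicative.toAdd (B.ψ u) with hu0
  have hu0ne : u0 ≠ 0 := by
    intro h
    apply hu1
    apply hinj
    rw [map_one]
    exact Multiplicative.toAdd.injective h
  obtain ⟨M, hM⟩ := exists_sl u0 hu0ne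
  let f : K → K → Ω := fun c a => (ψe.symm (Multiplicative.ofAdd
    ((M : Matrix (Fin 2) (Fin 2) K).mulVec ![c, a])) : V)
  have hfψ : ∀ (c a : K) (h : f c a ∈ V), Multiplicative.toAdd (B.ψ ⟨f c a, h⟩) =
      (M : Matrix (Fin 2) (Fin 2) K).mulVec ![c, a] := by
    intro c a h
    have h1 : (⟨f c a, h⟩ : V) = ψe.symm (Multiplicative.ofAdd ((M : Matrix (Fin 2) (Fin 2) K).mulVec ![c, a])) :=
      Subtype.ext rfl
    rw [h1, ← hψe, ψe.apply_symm_apply]
    rfl
  have hfmem : ∀ c a, f c a ∈ V := fun c a => (ψe.symm _).2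
  have hMM : ∀ w : Fin 2 → K, (M : Matrix (Fin 2) (Fin 2) K).mulVec
      (((M⁻¹ : Matrix.SpecialLinearGroup (Fin 2) K) : Matrix (Fin 2) (Fin 2) K).mulVec w) = w := by
    intro w
    rw [Matrix.mulVec_mulVec, ← Matrix.SpecialLinearGroup.coe_mul, mul_inv_cancel,
      Matrix.SpecialLinearGroup.coe_one, Matrix.one_mulVec]
  have hfe : ∀ (v : V) (c a : K), Multiplicative.toAdd (B.ψ v) = (M : Matrix (Fin 2) (Fin 2) K).mulVec ![c, a] →
      (v : Ω) = f c a := by
    intro v c a h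
    have h1 : v = ⟨f c a, hfmem c a⟩ := by
      apply hinj
      apply Multiplicative.toAdd.injective
      rw [h, hfψ]
    exact congrArg Subtype.val h1
  -- action of E
  have hE : ∀ e (he : e ∈ B.E) (c a : K) (h : f c a ∈ V), ((e ⟨f c a, h⟩ : V) : Ω) =
      f ((M⁻¹ * B.ρ ⟨e, he⟩ * M : Matrix.SpecialLinearGroup (Fin 2) K) 0 0 * c +
          (M⁻¹ * B.ρ ⟨e, he⟩ * M : Matrix.SpecialLinearGroup (Fin 2) K) 0 1 * a)
        ((M⁻¹ * B.ρ ⟨e, he⟩ * M : Matrix.SpecialLinearGroup (Fin 2) K) 1 0 * c +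
          (M⁻¹ * B.ρ ⟨e, he⟩ * M : Matrix.SpecialLinearGroup (Fin 2) K) 1 1 * a) := by
    intro e he c a h
    apply hfe
    have h1 := B.ψ_eq ⟨e, he⟩ ⟨f c a, h⟩
    rw [h1, hfψ, ← sl_mulVec, Matrix.mulVec_mulVec, Matrix.mulVec_mulVec]
    congr 1
    rw [← Matrix.SpecialLinearGroup.coe_mul, ← Matrix.SpecialLinearGroup.coe_mul]
    congr 1
    rw [mul_assoc M⁻¹, mul_inv_cancel_left]
  refine ⟨⟨f, ?_, ?_, ?_, ?_, ?_, ?_⟩⟩
  · intro c a c' a'
    have h1 : (f c a * f c' a' : Ω) = ((⟨f c a, hfmem c a⟩ * ⟨f c' a', hfmem c' a'⟩ : V) : Ω) := rfl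
    rw [h1]
    symm
    apply hfe
    rw [map_mul, toAdd_mul, hfψ, hfψ, ← Matrix.mulVec_add]
    congr 1
    ext i
    fin_cases i <;> simp
  · intro c a h
    have h1 : (⟨f c a, hfmem c a⟩ : V) = 1 := Subtype.ext h
    have h2 := hfψ c a (hfmem c a)
    rw [h1, map_one, toAdd_one] at h2
    have h3 : ![c, a] = (0 : Fin 2 → K) := by
      have h4 := congrArg (((M⁻¹ : Matrix.SpecialLinearGroup (Fin 2) K) : Matrix (Fin 2) (Fin 2) K).mulVec) h2
      rw [Matrix.mulVec_zero, Matrix.mulVec_mulVec, ← Matrix.SpecialLinearGroup.coe_mul, inv_mul_cancel,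
        Matrix.SpecialLinearGroup.coe_one, Matrix.one_mulVec] at h4
      exact h4.symm
    exact ⟨congrFun h3 0, congrFun h3 1⟩
  · intro v
    constructor
    · intro hv
      set w := ((M⁻¹ : Matrix.SpecialLinearGroup (Fin 2) K) : Matrix (Fin 2) (Fin 2) K).mulVec
        (Multiplicative.toAdd (B.ψ ⟨v, hv⟩)) with hw
      refine ⟨w 0, w 1, ?_⟩
      have h1 : ![w 0, w 1] = w := by ext i; fin_cases i <;> rfl
      have := hfe ⟨v, hv⟩ (w 0) (w 1) (by rw [h1, hw, hMM])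
      exact this
    · rintro ⟨c, a, rfl⟩
      exact hfmem c a
  · intro w hw
    -- w normalizes V
    have hwT : w ∈ T := by
      rw [B.T_eq]; exact Subgroup.mem_sup_right hw
    have hwN : w ∈ Subgroup.normalizer (V : Set Ω) := by
      rw [← B.nor] at hwT
      exact hwT.2
    obtain ⟨α, hα⟩ := exists_conjAut hwN
    have hαA : α ∈ A := (mem_autInducedBy_iff _ _ _).2 ⟨w, hw, hα⟩
    have hαE : α ∈ B.E := B.A_le hαA
    set g : Matrix.SpecialLinearGroup (Fin 2) K := M⁻¹ * B.ρ ⟨α, hαE⟩ * M with hg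
    have h1 : (g : Matrix (Fin 2) (Fin 2) K).mulVec ![1, 0] = ![1, 0] := by
      have h2 := B.ψ_eq ⟨α, hαE⟩ u
      have h3 : ((⟨α, hαE⟩ : B.E) : MulAut V) u = u := hufix α hαA
      rw [h3] at h2
      change u0 = _ at h2
      rw [hg, Matrix.SpecialLinearGroup.coe_mul, Matrix.SpecialLinearGroup.coe_mul, ← Matrix.mulVec_mulVec,
        ← Matrix.mulVec_mulVec, hM]
      change ((M⁻¹ : Matrix.SpecialLinearGroup (Fin 2) K) : Matrix (Fin 2) (Fin 2) K).mulVec
        ((((B.ρ ⟨α, hαE⟩ : Matrix.SpecialLinearGroup (Fin 2) K) : Matrix (Fin 2) (Fin 2) K)).mulVec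
          (Multiplicative.toAdd (B.ψ u))) = _
      rw [← h2, ← hM, Matrix.mulVec_mulVec, ← Matrix.SpecialLinearGroup.coe_mul, inv_mul_cancel,
        Matrix.SpecialLinearGroup.coe_one, Matrix.one_mulVec]
    rw [sl_mulVec] at h1
    have h2 : g 0 0 = 1 := by
      have := congrFun h1 0
      simpa using this
    have h3 : g 1 0 = 0 := by
      have := congrFun h1 1
      simpa using this
    have h4 : g 1 1 = 1 := by
      have h5 := g.2
      rw [Matrix.det_fin_two] at h5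
      change g 0 0 * g 1 1 - g 0 1 * g 1 0 = 1 at h5
      rw [h2, h3, mul_zero, sub_zero, one_mul] at h5
      exact h5
    refine ⟨g 0 1, fun c a => ?_⟩
    have h5 := hE α hαE c a (hfmem c a)
    rw [hα] at h5
    rw [h5]
    change f (g 0 0 * c + g 0 1 * a) (g 1 0 * c + g 1 1 * a) = _
    rw [h2, h3, h4, one_mul, zero_mul, zero_add, one_mul]
  · intro e he
    set g : Matrix.SpecialLinearGroup (Fin 2) K := M⁻¹ * B.ρ ⟨e, he⟩ * M with hg
    refine ⟨g 0 0, g 0 1, g 1 0, g 1 1, ?_, fun c a h => hE e he c a h⟩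
    have h5 := g.2
    rw [Matrix.det_fin_two] at h5
    exact h5
  · intro p q r s hdet
    set N : Matrix.SpecialLinearGroup (Fin 2) K := ⟨!![p, q; r, s], by rw [Matrix.det_fin_two_of]; exact hdet⟩ with hN
    set e := B.ρ.symm (M * N * M⁻¹) with he
    refine ⟨e, e.2, fun c a h => ?_⟩
    have h1 := hE e e.2 c a h
    have h2 : M⁻¹ * B.ρ ⟨(e : MulAut V), e.2⟩ * M = N := by
      have h3 : (⟨(e : MulAut V), e.2⟩ : B.E) = e := rfl
      rw [h3, he, MulEquiv.apply_symm_apply]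
      group
    rw [h2] at h1
    exact h1

end Cfsg.Agent.H770.Hen
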