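import Cfsg.Agent.H770.Hen.Base
import Cfsg.Agent.H770.Hen.Fus

/-!
# S5175, sections L and J3: the coordinate theorem (helper770)
-/

set_option autoImplicit false

namespace Cfsg.Agent.H770.Hen

open Cfsg Cfsg.FusionSystem Cfsg.Agent.H802 Cfsg.Agent.H756.HM

/-- The functional equation: one field automorphism of order at most two. -/
theorem exists_sigma {K : Type} [Field K] (u δ : K → K) (hadd : ∀ a b, u (a + b) = u a + u b)
    (hinj : ∀ a, u a = 0 → a = 0) (h : ∀ a b, δ (u b * a) = u a * b) :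
    ∃ (σ : K ≃+* K) (m : K), m ≠ 0 ∧ (∀ a, σ (σ a) = a) ∧ (∀ b, u b = m * σ b) ∧ ∀ s, δ s = m * σ (s / m) := by
  have hm : u 1 ≠ 0 := fun h1 => one_ne_zero (hinj 1 h1)
  set m := u 1 with hmdef
  have h1 : ∀ a, δ (m * a) = u a := by
    intro a
    have := h a 1
    rwa [← hmdef, mul_one] at this
  set s0 : K → K := fun a => u a / m with hs0
  have hu : ∀ a, u a = m * s0 a := fun a => by rw [hs0]; field_simp
  have h2 : ∀ a b, s0 (s0 b * a) = s0 a * b := by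
    intro a b
    have h3 : u (s0 b * a) = u a * b := by
      rw [← h1, ← mul_assoc, ← hu, h]
    rw [hs0]
    show u (s0 b * a) / m = u a / m * b
    rw [h3]; field_simp
  have hone : s0 1 = 1 := by
    rw [hs0]; exact div_self hm
  have h4 : ∀ b, s0 (s0 b) = b := by
    intro b
    have := h2 1 b
    rwa [mul_one, hone, one_mul] at this
  have h5 : ∀ a b, s0 (b * a) = s0 b * s0 a := by
    intro a b
    have := h2 a (s0 b)
    rw [h4] at this
    rw [this, mul_comm]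
  have h6 : ∀ a b, s0 (a + b) = s0 a + s0 b := by
    intro a b
    rw [hs0]
    show u (a + b) / m = u a / m + u b / m
    rw [hadd, add_div]
  refine ⟨{ toFun := s0, invFun := s0, left_inv := h4, right_inv := h4, map_mul' := fun a b => h5 b a, map_add' := h6 },
    m, hm, h4, hu, ?_⟩
  intro s
  show δ s = m * s0 (s / m)
  rw [← hu, ← h1]
  congr 1
  field_simp

/-- The coordinates attached to the main configuration. -/
structure BRel {Ω : Type*} [Group Ω] {S : Subgroup Ω} {F : FusionSystem S} {K : Type} [Field K] [Fintype K]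
    {V T : Subgroup Ω} {x : Ω} (B : Big F K V T x) {σ : K ≃+* K} (R : Rel Ω K σ) : Prop where
  S_eq : S = R.Sg
  T_eq : T = R.T
  V_eq : V = R.Vg
  W_eq : cj x V = R.Wg
  xy : ∃ w ∈ cj x V, x = w * R.y
  E1 : ∀ e ∈ B.E, ∃ p q r s : K, p * s - q * r = 1 ∧ ∀ (a c : K) (h : R.e a 0 c ∈ V),
    ((e ⟨R.e a 0 c, h⟩ : V) : Ω) = R.e (r * c + s * a) 0 (p * c + q * a)
  E2 : ∀ p q r s : K, p * s - q * r = 1 → ∃ e ∈ B.E, ∀ (a c : K) (h : R.e a 0 c ∈ V),
    ((e ⟨R.e a 0 c, h⟩ : V) : Ω) = R.e (r * c + s * a) 0 (p * c + q * a)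

theorem exists_rel {Ω : Type*} [Group Ω] {S : Subgroup Ω} [Finite S] (hS : IsPGroup 2 S)
    {F : FusionSystem S} {K : Type} [Field K] [Fintype K] {V T : Subgroup Ω} {x : Ω} (B : Big F K V T x)
    (hD : fixS V B.E = ⊥) : ∃ (σ : K ≃+* K) (R : Rel Ω K σ), BRel B R := by
  classical
  obtain ⟨P⟩ := exists_pre hS B hD
  set W := cj x V with hW
  set f := P.f with hf
  have hVS : V ≤ S := B.V_le
  have mW : ∀ w, w ∈ W ↔ x⁻¹ * w * x ∈ V := by
    intro w
    constructor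
    · rintro ⟨v, hv, rfl⟩
      show x⁻¹ * (x * v * x⁻¹) * x ∈ V
      have : x⁻¹ * (x * v * x⁻¹) * x = v := by group
      rw [this]; exact hv
    · intro h
      refine ⟨x⁻¹ * w * x, h, ?_⟩
      show x * (x⁻¹ * w * x) * x⁻¹ = w
      group
  have hWS : W ≤ S := by
    rintro _ ⟨v, hv, rfl⟩
    exact S.mul_mem (S.mul_mem B.x_mem (B.V_le hv)) (S.inv_mem B.x_mem)
  have hVV : ∀ a ∈ V, ∀ b ∈ V, a * b = b * a := by
    intro a ha b hb
    have h1 := B.el a ha
    have h2 := B.el b hb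
    have h3 := B.el _ (V.mul_mem ha hb)
    rw [pow_two] at h1 h2 h3
    have h4 : a * b = (a * a) * (b * a) * (b * b) := by
      calc a * b = a * (a * b * (a * b)) * b := by rw [h3]; group
        _ = _ := by group
    rw [h4, h1, h2]; group
  have hWW : ∀ a ∈ W, ∀ b ∈ W, a * b = b * a := by
    intro a ha b hb
    have h1 := hVV _ ((mW a).1 ha) _ ((mW b).1 hb)
    have h2 : x⁻¹ * (a * b) * x = x⁻¹ * (b * a) * x := by
      calc x⁻¹ * (a * b) * x = (x⁻¹ * a * x) * (x⁻¹ * b * x) := by group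
        _ = (x⁻¹ * b * x) * (x⁻¹ * a * x) := h1
        _ = _ := by group
    exact mul_left_cancel (mul_right_cancel h2)
  have hTV : ∀ t ∈ T, ∀ v ∈ V, t * v * t⁻¹ ∈ V := by
    intro t ht v hv
    rw [← B.nor] at ht
    exact (Subgroup.mem_normalizer_iff.1 ht.2 v).1 hv
  have hxT : ∀ t, t ∈ T ↔ x * t * x⁻¹ ∈ T := fun t => Subgroup.mem_normalizer_iff.1 B.x_nor t
  have hxT' : ∀ t ∈ T, x⁻¹ * t * x ∈ T := by
    intro t ht
    rw [hxT]
    have : x * (x⁻¹ * t * x) * x⁻¹ = t := by group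
    rw [this]; exact ht
  have hTW : ∀ t ∈ T, ∀ w ∈ W, t * w * t⁻¹ ∈ W := by
    intro t ht w hw
    rw [mW]
    have h1 := hTV _ (hxT' t ht) _ ((mW w).1 hw)
    have : x⁻¹ * (t * w * t⁻¹) * x = (x⁻¹ * t * x) * (x⁻¹ * w * x) * (x⁻¹ * t * x)⁻¹ := by group
    rw [this]; exact h1
  have hVT : V ≤ T := by rw [B.T_eq]; exact le_sup_left
  have hWT : W ≤ T := by rw [B.T_eq]; exact le_sup_right
  have hTS : T ≤ S := by rw [← B.nor]; exact inf_le_left
  have hx2 : x * x ∈ T := by rw [← pow_two]; exact B.x_sq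
  have hxW : ∀ w ∈ W, x * w * x⁻¹ ∈ V := by
    intro w hw
    have h1 := hTV _ hx2 _ ((mW w).1 hw)
    have : x * w * x⁻¹ = x * x * (x⁻¹ * w * x) * (x * x)⁻¹ := by group
    rw [this]; exact h1
  have hxV : ∀ v ∈ V, x * v * x⁻¹ ∈ W := fun v hv => ⟨v, hv, rfl⟩
  have hdec : ∀ t ∈ T, ∃ w ∈ W, ∃ v ∈ V, t = w * v := by
    intro t ht
    have h1 : W ≤ Subgroup.normalizer (V : Set Ω) := by
      intro w hw
      have := hWT hw
      rw [← B.nor] at this
      exact this.2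
    rw [B.T_eq, sup_comm, ← SetLike.mem_coe, Subgroup.coe_mul_of_left_le_normalizer_right _ _ h1] at ht
    obtain ⟨w, hw, v, hv, rfl⟩ := Set.mem_mul.1 ht
    exact ⟨w, hw, v, hv, rfl⟩
  -- centralizers
  have hCV : ∀ s ∈ S, (∀ v ∈ V, s * v = v * s) → s ∈ V := by
    intro s hs h
    rw [← B.cent]
    exact ⟨hs, Subgroup.mem_centralizer_iff.2 fun v hv => (h v hv).symm⟩
  have hCW : ∀ s ∈ S, (∀ w ∈ W, s * w = w * s) → s ∈ W := by
    intro s hs h
    rw [mW]
    apply hCV _ (S.mul_mem (S.mul_mem (S.inv_mem B.x_mem) hs) B.x_mem)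
    intro v hv
    have h1 := h _ (hxV v hv)
    calc x⁻¹ * s * x * v = x⁻¹ * (s * (x * v * x⁻¹)) * x := by group
      _ = x⁻¹ * ((x * v * x⁻¹) * s) * x := by rw [h1]
      _ = v * (x⁻¹ * s * x) := by group
  -- the element y
  obtain ⟨w, hw, v, hv, hxx⟩ := hdec _ (T.inv_mem hx2)
  -- x * x = v⁻¹ * w⁻¹
  have hxx' : x * x = v⁻¹ * w⁻¹ := by
    rw [← mul_inv_rev, ← hxx, inv_inv]
  set y := w * x with hy
  have hyS : y ∈ S := S.mul_mem (hWS hw) B.x_mem
  have hyT : y ∉ T := by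
    intro h
    apply B.x_not
    have : x = w⁻¹ * y := by rw [hy]; group
    rw [this]
    exact T.mul_mem (T.inv_mem (hWT hw)) h
  have hyV : ∀ v ∈ V, y * v * y⁻¹ ∈ W := by
    intro v' hv'
    have h1 := hxV v' hv'
    have : y * v' * y⁻¹ = w * (x * v' * x⁻¹) * w⁻¹ := by rw [hy]; group
    rw [this]
    exact W.mul_mem (W.mul_mem hw h1) (W.inv_mem hw)
  have hyW : ∀ v ∈ W, y * v * y⁻¹ ∈ V := by
    intro v' hv'
    have h1 := hxW v' hv'
    have : y * v' * y⁻¹ = w * (x * v' * x⁻¹) * w⁻¹ := by rw [hy]; group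
    rw [this]
    exact hTV _ (hWT hw) _ h1
  -- y² ∈ Z
  set v1 := x * w⁻¹ * x⁻¹ with hv1
  set w1 := x * v⁻¹ * x⁻¹ with hw1
  have hv1V : v1 ∈ V := hxW _ (W.inv_mem hw)
  have hw1W : w1 ∈ W := hxV _ (V.inv_mem hv)
  have hrel : v⁻¹ * w⁻¹ = w1 * v1 := by
    have h1 : x * x = x * (x * x) * x⁻¹ := by group
    rw [hxx'] at h1
    rw [h1, hw1, hv1]; group
  set z0 := v1⁻¹ * v⁻¹ with hz0
  have hz0V : z0 ∈ V := V.mul_mem (V.inv_mem hv1V) (V.inv_mem hv)
  have hz0W : z0 ∈ W := by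
    have h1 : z0 = v1⁻¹ * w1 * v1⁻¹⁻¹ * w := by
      rw [hz0]
      have h2 : v⁻¹ = w1 * v1 * w := by rw [← hrel]; group
      rw [h2]; group
    rw [h1]
    exact W.mul_mem (hTW _ (hVT (V.inv_mem hv1V)) _ hw1W) hw
  have hyy : y * y = z0 := by
    have h1 : y * y = w * (x * w⁻¹ * x⁻¹)⁻¹ * (x * x) := by rw [hy]; group
    rw [h1, ← hv1, hxx']
    have h2 : w * v1⁻¹ * (v⁻¹ * w⁻¹) = w * z0 * w⁻¹ := by rw [hz0]; group
    rw [h2, hWW _ hw _ hz0W, mul_inv_cancel_right]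
  have hyyV : ∀ v' ∈ V, y * (y * v' * y⁻¹) * y⁻¹ = v' := by
    intro v' hv'
    have : y * (y * v' * y⁻¹) * y⁻¹ = (y * y) * v' * (y * y)⁻¹ := by group
    rw [this, hyy, hVV _ hz0V _ hv', mul_inv_cancel_right]
  have hyyW : ∀ v' ∈ W, y * (y * v' * y⁻¹) * y⁻¹ = v' := by
    intro v' hv'
    have : y * (y * v' * y⁻¹) * y⁻¹ = (y * y) * v' * (y * y)⁻¹ := by group
    rw [this, hyy, hWW _ hz0W _ hv', mul_inv_cancel_right]
  have hyiV : ∀ v' ∈ V, y⁻¹ * v' * y = y * v' * y⁻¹ := by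
    intro v' hv'
    have h1 := hyyV v' hv'
    have : y⁻¹ * v' * y = y⁻¹ * (y * (y * v' * y⁻¹) * y⁻¹) * y := by rw [h1]
    rw [this]; group
  have hyiW : ∀ v' ∈ W, y⁻¹ * v' * y = y * v' * y⁻¹ := by
    intro v' hv'
    have h1 := hyyW v' hv'
    have : y⁻¹ * v' * y = y⁻¹ * (y * (y * v' * y⁻¹) * y⁻¹) * y := by rw [h1]
    rw [this]; group
  -- f
  have hfmem : ∀ c a, f c a ∈ V := fun c a => (P.mem _).2 ⟨c, a, rfl⟩
  have hfadd : ∀ c a c' a', f (c + c') (a + a') = f c a * f c' a' := P.add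
  have hf0 : f 0 0 = 1 := by
    have h1 := hfadd 0 0 0 0
    rw [add_zero] at h1
    have h2 : f 0 0 * 1 = f 0 0 * f 0 0 := by rw [mul_one]; exact h1
    exact (mul_left_cancel h2).symm
  have hfinj : ∀ c a c' a', f c a = f c' a' → c = c' ∧ a = a' := by
    intro c a c' a' h
    have h1 : f (c + -c') (a + -a') = 1 := by
      rw [hfadd, h, ← hfadd, add_neg_cancel, add_neg_cancel, hf0]
    obtain ⟨h2, h3⟩ := P.inj _ _ h1
    exact ⟨by linear_combination h2, by linear_combination h3⟩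
  have hfinv : ∀ c a, (f c a)⁻¹ = f c a := by
    intro c a
    rw [inv_eq_iff_mul_eq_one, ← pow_two]
    exact B.el _ (hfmem c a)
  set f' : K → K → Ω := fun c a => y * f c a * y⁻¹ with hf'
  have hf'mem : ∀ c a, f' c a ∈ W := fun c a => hyV _ (hfmem c a)
  have hf'add : ∀ c a c' a', f' (c + c') (a + a') = f' c a * f' c' a' := by
    intro c a c' a'
    show y * f (c + c') (a + a') * y⁻¹ = y * f c a * y⁻¹ * (y * f c' a' * y⁻¹)
    rw [hfadd]; group
  have hf'inj : ∀ c a c' a', f' c a = f' c' a' → c = c' ∧ a = a' := fun c a c' a' h =>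
    hfinj _ _ _ _ (mul_left_cancel (mul_right_cancel h))
  have hWf' : ∀ w' ∈ W, ∃ c a, w' = f' c a := by
    intro w' hw'
    have h1 : y⁻¹ * w' * y ∈ V := by rw [hyiW w' hw']; exact hyW w' hw'
    obtain ⟨c, a, h2⟩ := (P.mem _).1 h1
    refine ⟨c, a, ?_⟩
    show w' = y * P.f c a * y⁻¹
    rw [← h2]; group
  -- Z
  have hZ1 : ∀ c, f c 0 ∈ W := by
    intro c
    apply hCW _ (hVS (hfmem c 0))
    intro w' hw'
    obtain ⟨t, ht⟩ := P.act w' hw'
    have h1 := ht c 0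
    rw [mul_zero, add_zero, mul_inv_eq_iff_eq_mul] at h1
    exact h1.symm
  have hf'0 : ∀ c, f' c 0 ∈ V := fun c => hyW _ (hZ1 c)
  choose u hu using fun b => P.act (f' 0 b) (hf'mem 0 b)
  have hu' : ∀ d b c a, f' d b * f c a * (f' d b)⁻¹ = f (c + u b * a) a := by
    intro d b c a
    have h1 : f' d b = f' 0 b * f' d 0 := by rw [← hf'add]; simp
    rw [h1]
    have h2 : f' 0 b * f' d 0 * f c a * (f' 0 b * f' d 0)⁻¹ = f' 0 b * (f' d 0 * f c a * (f' d 0)⁻¹) * (f' 0 b)⁻¹ := by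
      group
    rw [h2, hVV _ (hf'0 d) _ (hfmem c a), mul_inv_cancel_right]
    exact hu b c a
  have hne : ∃ b, u b ≠ 0 := by
    by_contra hall
    push Not at hall
    have hWV : W ≤ V := by
      intro w' hw'
      apply hCV _ (hWS hw')
      intro v' hv'
      obtain ⟨d, b, rfl⟩ := hWf' w' hw'
      obtain ⟨c, a, rfl⟩ := (P.mem _).1 hv'
      have h1 := hu' d b c a
      rw [hall, zero_mul, add_zero, mul_inv_eq_iff_eq_mul] at h1
      exact h1
    -- then x normalizes V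
    apply B.x_not
    rw [← B.nor]
    refine ⟨B.x_mem, ?_⟩
    refine Subgroup.mem_normalizer_iff.2 fun v' => ?_
    constructor
    · intro hv'
      exact hWV (hxV v' hv')
    · intro h
      have h1 : x * (x * v' * x⁻¹) * x⁻¹ ∈ V := hWV (hxV _ h)
      have h2 := hTV _ (T.inv_mem hx2) _ h1
      have h3 : (x * x)⁻¹ * (x * (x * v' * x⁻¹) * x⁻¹) * (x * x)⁻¹⁻¹ = v' := by group
      rwa [h3] at h2
  have hZ2 : ∀ c a, f c a ∈ W → a = 0 := by
    intro c a h
    obtain ⟨b, hb⟩ := hne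
    have h1 := hu b c a
    rw [hWW _ (hf'mem 0 b) _ h, mul_inv_cancel_right] at h1
    have h2 := (hfinj _ _ _ _ h1).1
    have h3 : u b * a = 0 := by linear_combination -h2
    exact (mul_eq_zero.1 h3).resolve_left hb
  have hZ3 : ∀ c a, f' c a ∈ V → a = 0 := by
    intro c a h
    apply hZ2 c a
    have h1 : f c a = y⁻¹ * f' c a * y := by
      show f c a = y⁻¹ * (y * f c a * y⁻¹) * y
      group
    rw [h1, hyiV _ h]
    exact hyV _ h
  have hδ : ∀ s, ∃ c, f s 0 = f' c 0 := by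
    intro s
    obtain ⟨c, a, h1⟩ := hWf' _ (hZ1 s)
    have h2 : a = 0 := hZ3 c a (h1 ▸ hfmem s 0)
    exact ⟨c, by rw [h1, h2]⟩
  choose δ hδ using hδ
  -- V acts on W
  have hact : ∀ c a d b, f c a * f' d b * (f c a)⁻¹ = f' (d + u a * b) b := by
    intro c a d b
    have h1 : f c a = y * f' c a * y⁻¹ := by
      show f c a = y * (y * f c a * y⁻¹) * y⁻¹
      rw [hyyV _ (hfmem c a)]
    rw [h1]
    show y * f' c a * y⁻¹ * (y * f d b * y⁻¹) * (y * f' c a * y⁻¹)⁻¹ = y * f (d + u a * b) b * y⁻¹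
    have h2 : y * f' c a * y⁻¹ * (y * f d b * y⁻¹) * (y * f' c a * y⁻¹)⁻¹ =
        y * (f' c a * f d b * (f' c a)⁻¹) * y⁻¹ := by group
    rw [h2, hu']
  have huadd : ∀ a b, u (a + b) = u a + u b := by
    intro a b
    have h1 := hu (a + b) 0 1
    have h2 : f' 0 (a + b) = f' 0 a * f' 0 b := by rw [← hf'add]; simp
    rw [h2] at h1
    have h3 : f' 0 a * f' 0 b * f 0 1 * (f' 0 a * f' 0 b)⁻¹ = f' 0 a * (f' 0 b * f 0 1 * (f' 0 b)⁻¹) * (f' 0 a)⁻¹ := by
      group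
    rw [h3, hu, hu] at h1
    have h4 := (hfinj _ _ _ _ h1).1
    linear_combination -h4
  have huinj : ∀ b, u b = 0 → b = 0 := by
    intro b hb
    apply hZ3 0 b
    apply hCV _ (hWS (hf'mem 0 b))
    intro v' hv'
    obtain ⟨c, a, rfl⟩ := (P.mem _).1 hv'
    have h1 := hu b c a
    rw [hb, zero_mul, add_zero, mul_inv_eq_iff_eq_mul] at h1
    exact h1
  have hfun : ∀ a b, δ (u b * a) = u a * b := by
    intro a b
    have h1 : f' 0 b * f 0 a * (f' 0 b)⁻¹ * (f 0 a)⁻¹ = f (u b * a) 0 := by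
      rw [hu, hfinv, ← hfadd]
      have h2 : f (0 + u b * a + 0) (a + a) = f (u b * a) 0 * f 0 a * f 0 a := by
        rw [← hfadd, ← hfadd]; congr 1 <;> ring
      rw [h2, mul_assoc]
      have h3 : f 0 a * f 0 a = 1 := by rw [← pow_two]; exact B.el _ (hfmem 0 a)
      rw [h3, mul_one]
    have h2 : f 0 a * f' 0 b * (f 0 a)⁻¹ * (f' 0 b)⁻¹ = f' (u a * b) 0 := by
      rw [hact]
      have h3 : f' (0 + u a * b) b = f' (u a * b) 0 * f' 0 b := by
        rw [← hf'add]; congr 1 <;> ring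
      rw [h3, mul_inv_cancel_right]
    have h3 : (f' 0 b * f 0 a * (f' 0 b)⁻¹ * (f 0 a)⁻¹)⁻¹ = f 0 a * f' 0 b * (f 0 a)⁻¹ * (f' 0 b)⁻¹ := by group
    rw [h1, h2, hfinv, hδ] at h3
    exact (hf'inj _ _ _ _ h3).1
  obtain ⟨σ, m, hm, hσ, huσ, hδσ⟩ := exists_sigma u δ huadd huinj hfun
  have hf'1 : ∀ c a, f' c a = f' 0 a * f' c 0 := by
    intro c a
    rw [← hf'add]; simp
  have hf1 : ∀ c a, f c a = f 0 a * f c 0 := by
    intro c a
    rw [← hfadd]; simp
  -- the relations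
  have R_va_zc : ∀ a c, f 0 a * f (m * c) 0 = f (m * c) 0 * f 0 a := fun a c =>
    hVV _ (hfmem _ _) _ (hfmem _ _)
  have R_wb_zc : ∀ b c, f' 0 (σ b) * f (m * c) 0 = f (m * c) 0 * f' 0 (σ b) := fun b c =>
    hWW _ (hf'mem _ _) _ (hZ1 _)
  have R_va_wb : ∀ a b, f 0 a * f' 0 (σ b) = f' 0 (σ b) * f 0 a * f (m * (a * b)) 0 := by
    intro a b
    have h1 := hact 0 a 0 (σ b)
    rw [mul_inv_eq_iff_eq_mul] at h1
    rw [h1, hf'1, zero_add]
    have h2 : f' (u a * σ b) 0 = f (m * (a * b)) 0 := by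
      rw [hδ, hδσ, huσ]
      congr 1
      rw [mul_div_cancel_left₀ _ hm, map_mul]
      ring
    rw [h2, mul_assoc (f' 0 (σ b)), mul_assoc (f' 0 (σ b)), hVV _ (hfmem _ _) _ (hfmem _ _)]
  have R_inj : ∀ a b c, f' 0 (σ b) * f 0 a * f (m * c) 0 = 1 → a = 0 ∧ b = 0 ∧ c = 0 := by
    intro a b c h
    have h1 : f (m * c) a = (f' 0 (σ b))⁻¹ := by
      rw [hf1, eq_inv_iff_mul_eq_one, ← hf1, ← mul_eq_one_iff_eq_inv.2 (eq_inv_of_mul_eq_one_left (a := f' 0 (σ b)) (b := f 0 a * f (m * c) 0) (by rw [← mul_assoc]; exact h))]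
      rw [← hf1]
      have h2 : f' 0 (σ b) * f (m * c) a = 1 := by rw [hf1, ← mul_assoc]; exact h
      have h3 := mul_eq_one_comm.1 h2
      rw [h3, h2]
    have ha : a = 0 := hZ2 (m * c) a (by rw [h1]; exact W.inv_mem (hf'mem _ _))
    have hb : σ b = 0 := by
      apply hZ3 0 (σ b)
      have h2 : f' 0 (σ b) = (f (m * c) a)⁻¹ := by rw [h1, inv_inv]
      rw [h2]
      exact V.inv_mem (hfmem _ _)
    have hb' : b = 0 := (map_eq_zero σ).1 hb
    refine ⟨ha, hb', ?_⟩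
    rw [ha, hb] at h
    have h4 : f' 0 0 = 1 := by
      show y * f 0 0 * y⁻¹ = 1
      rw [hf0]; group
    rw [h4, hf0, one_mul, one_mul] at h
    exact (mul_eq_zero.1 (P.inj _ _ h).1).resolve_left hm
  have R_y_zc : ∀ c, y * f (m * c) 0 * y⁻¹ = f (m * σ c) 0 := by
    intro c
    show f' (m * c) 0 = _
    rw [hδ, hδσ, mul_div_cancel_left₀ _ hm, hσ]
  obtain ⟨c0, a0, hz0f⟩ := (P.mem _).1 hz0V
  have ha0 : a0 = 0 := hZ2 c0 a0 (by
    show P.f c0 a0 ∈ W
    rw [← hz0f]; exact hz0W)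
  have hallT : ∀ a b c, f' 0 (σ b) * f 0 a * f (m * c) 0 ∈ T := fun a b c =>
    T.mul_mem (T.mul_mem (hWT (hf'mem _ _)) (hVT (hfmem _ _))) (hVT (hfmem _ _))
  let R : Rel Ω K σ :=
    { va := fun a => f 0 a
      wb := fun b => f' 0 (σ b)
      zc := fun c => f (m * c) 0
      y := y
      va_add := fun a b => by rw [← hfadd, add_zero]
      wb_add := fun a b => by rw [← hf'add, add_zero, map_add]
      zc_add := fun a b => by rw [← hfadd, add_zero, mul_add]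
      va_zc := R_va_zc
      wb_zc := R_wb_zc
      va_wb := R_va_wb
      inj := R_inj
      sig := hσ
      y_sq := ⟨c0 / m, by rw [hyy, hz0f, ha0, mul_div_cancel₀ _ hm]⟩
      y_va := fun a => by
        show y * f 0 a * y⁻¹ = f' 0 (σ (σ a))
        rw [hσ]
      y_zc := R_y_zc
      y_not := fun a b c h => hyT (h ▸ hallT a b c) }
  have hRe : ∀ a b c, R.e a b c = f' 0 (σ b) * f 0 a * f (m * c) 0 := fun _ _ _ => rfl
  have hRe0 : ∀ a c, R.e a 0 c = f (m * c) a := by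
    intro a c
    rw [hRe, map_zero, hf1 (m * c) a]
    have h4 : f' 0 0 = 1 := by
      show y * f 0 0 * y⁻¹ = 1
      rw [hf0]; group
    rw [h4, one_mul]
  have hRe1 : ∀ b c, R.e 0 b c = f' (m * σ c) (σ b) := by
    intro b c
    rw [hRe, hf0, mul_one, hf'1 (m * σ c) (σ b)]
    have h1 : f (m * c) 0 = f' (m * σ c) 0 := by
      rw [hδ, hδσ, mul_div_cancel_left₀ _ hm]
    rw [h1]
  have hVeq : V = R.Vg := by
    ext v'
    rw [P.mem, R.mem_Vg]
    constructor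
    · rintro ⟨c, a, rfl⟩
      exact ⟨a, c / m, by rw [hRe0, mul_div_cancel₀ _ hm]⟩
    · rintro ⟨a, c, rfl⟩
      exact ⟨m * c, a, hRe0 a c⟩
  have hWeq : W = R.Wg := by
    ext w'
    rw [R.mem_Wg]
    constructor
    · intro hw'
      obtain ⟨c, b, rfl⟩ := hWf' w' hw'
      refine ⟨σ b, σ (c / m), ?_⟩
      rw [hRe1, hσ, hσ, mul_div_cancel₀ _ hm]
    · rintro ⟨b, c, rfl⟩
      rw [hRe1]
      exact hf'mem _ _
  have hTeq : T = R.T := by
    ext t
    rw [R.mem_T]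
    constructor
    · intro ht
      obtain ⟨w', hw', v', hv', rfl⟩ := hdec t ht
      rw [hWeq] at hw'
      rw [hVeq] at hv'
      obtain ⟨b, c, rfl⟩ := R.mem_Wg.1 hw'
      obtain ⟨a', c', rfl⟩ := R.mem_Vg.1 hv'
      exact ⟨_, _, _, R.e_mul _ _ _ _ _ _⟩
    · rintro ⟨a, b, c, rfl⟩
      exact hallT a b c
  have hSeq : S = R.Sg := by
    ext s
    rw [R.mem_Sg]
    constructor
    · intro hs
      by_cases hsT : s ∈ T
      · rw [hTeq, R.mem_T] at hsT
        obtain ⟨a, b, c, h⟩ := hsT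
        exact ⟨a, b, c, Or.inl h⟩
      · have hidx : (T.subgroupOf S).index = 2 := B.S_idx
        have h1 := (Subgroup.mul_mem_iff_of_index_two hidx (a := (⟨s, hs⟩ : S)) (b := (⟨y⁻¹, S.inv_mem hyS⟩ : S))).2
          (by
            constructor
            · intro h
              exact absurd (Subgroup.mem_subgroupOf.1 h) hsT
            · intro h
              have h2 : y⁻¹ ∈ T := Subgroup.mem_subgroupOf.1 h
              exact absurd (inv_mem_iff.1 h2) hyT)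
        have h2 : s * y⁻¹ ∈ T := Subgroup.mem_subgroupOf.1 h1
        rw [hTeq, R.mem_T] at h2
        obtain ⟨a, b, c, h⟩ := h2
        refine ⟨a, b, c, Or.inr ?_⟩
        rw [← h]
        show s = s * y⁻¹ * y
        group
    · rintro ⟨a, b, c, rfl | rfl⟩
      · exact hTS (hallT a b c)
      · exact S.mul_mem (hTS (hallT a b c)) hyS
  refine ⟨σ, R, ⟨hSeq, hTeq, hVeq, hWeq, ⟨w⁻¹, W.inv_mem hw, ?_⟩, ?_, ?_⟩⟩
  · show x = w⁻¹ * y
    rw [hy]; group
  · intro e he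
    obtain ⟨p, q, r, s, hd, h⟩ := P.E1 e he
    refine ⟨p, q / m, r * m, s, ?_, ?_⟩
    · have : p * s - q / m * (r * m) = p * s - q * r := by field_simp
      rw [this]; exact hd
    · intro a c h1
      have h2 : (⟨R.e a 0 c, h1⟩ : V) = ⟨f (m * c) a, hfmem _ _⟩ := Subtype.ext (hRe0 a c)
      rw [h2, h, hRe0]
      congr 1
      · field_simp
      · ring
  · intro p q r s hd
    obtain ⟨e, he, h⟩ := P.E2 p (q * m) (r / m) s (by
      have : p * s - q * m * (r / m) = p * s - q * r := by field_simp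
      rw [this]; exact hd)
    refine ⟨e, he, fun a c h1 => ?_⟩
    have h2 : (⟨R.e a 0 c, h1⟩ : V) = ⟨f (m * c) a, hfmem _ _⟩ := Subtype.ext (hRe0 a c)
    rw [h2, h, hRe0]
    congr 1
    · ring
    · field_simp

end Cfsg.Agent.H770.Hen
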