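import Cfsg.Agent.H756.HM.Stmts

/-!
# S5175, sections L and J3: coordinates (helper770)

`T = {wb b * va a * zc c}`, the group of unitriangular `3 × 3` matrices over `K`, `V = {va a * zc c}`, `V' = {wb b * zc c}`,
`S = T⟨y⟩` with `y` swapping `V` and `V'`.
-/

set_option autoImplicit false

namespace Cfsg.Agent.H770.Hen

open Cfsg Cfsg.FusionSystem

/-- Coordinates of a Sylow 2-subgroup of `PSL₃(K).2` (unitary-graph or graph type according to `σ`) and of a fusion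
system on it in which `V ≅ K²` is acted on by `SL₂(K)`. -/
structure Crd {Ω : Type*} [Group Ω] {S : Subgroup Ω} (F : FusionSystem S) (K : Type) [Field K]
    (σ : K ≃+* K) where
  va : K → Ω
  wb : K → Ω
  zc : K → Ω
  y : Ω
  va_add : ∀ a b, va (a + b) = va a * va b
  wb_add : ∀ a b, wb (a + b) = wb a * wb b
  zc_add : ∀ a b, zc (a + b) = zc a * zc b
  va_zc : ∀ a c, va a * zc c = zc c * va a
  wb_zc : ∀ b c, wb b * zc c = zc c * wb b
  va_wb : ∀ a b, va a * wb b = wb b * va a * zc (a * b)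
  inj : ∀ a b c, wb b * va a * zc c = 1 → a = 0 ∧ b = 0 ∧ c = 0
  sig : ∀ a, σ (σ a) = a
  y_sq : y * y = 1
  y_va : ∀ a, y * va a * y⁻¹ = wb (σ a)
  y_zc : ∀ c, y * zc c * y⁻¹ = zc (σ c)
  y_not : ∀ a b c, y ≠ wb b * va a * zc c
  mem_S : ∀ s, s ∈ S ↔ ∃ a b c, s = wb b * va a * zc c ∨ s = wb b * va a * zc c * y
  /-- the subgroup `V` -/
  V : Subgroup Ω
  mem_V : ∀ v, v ∈ V ↔ ∃ a c, v = va a * zc c
  /-- `SL₂(K)` acts on `V` in `F` -/
  lin : ∀ p q r s : K, p * s - q * r = 1 → ∃ φ ∈ F.Hom V, ∀ (a c : K) (h : va a * zc c ∈ V),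
    φ ⟨va a * zc c, h⟩ = va (r * c + s * a) * zc (p * c + q * a)
  /-- the automorphisms of `V` in `F` are semilinear -/
  semi : ∀ φ ∈ F.Hom V, (∀ v : V, φ v ∈ V) → ∃ (θ : K ≃+* K) (p q r s : K), p * s - q * r ≠ 0 ∧
    ∀ (a c : K) (h : va a * zc c ∈ V),
      φ ⟨va a * zc c, h⟩ = va (r * θ c + s * θ a) * zc (p * θ c + q * θ a)
  /-- normalization of `y` for `σ = 1` -/
  tor : (∀ a, σ a = a) → ∀ l : K, l ≠ 0 → ∃ φ ∈ F.Hom S, (∀ (a : K) (h : va a ∈ S), φ ⟨va a, h⟩ = va (l * a)) ∧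
    (∀ (b : K) (h : wb b ∈ S), φ ⟨wb b, h⟩ = wb (l * b)) ∧
    (∀ (c : K) (h : zc c ∈ S), φ ⟨zc c, h⟩ = zc (l * l * c)) ∧ ∀ h : y ∈ S, φ ⟨y, h⟩ = y

/-- the semilinear map of `K²`, in the second coordinate system of `Crd`, that belongs to `F` -/
def Crd.Gam {Ω : Type*} [Group Ω] {S : Subgroup Ω} {F : FusionSystem S} {K : Type} [Field K]
    {σ : K ≃+* K} (C : Crd F K σ) (θ : K ≃+* K) (p q r s : K) : Prop :=
  ∃ φ ∈ F.Hom C.V, ∀ (a c : K) (h : C.va a * C.zc c ∈ C.V),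
      φ ⟨C.va a * C.zc c, h⟩ = C.va (r * θ c + s * θ a) * C.zc (p * θ c + q * θ a)

/-- the diagonal semilinear maps `(c, a) ↦ (μ θ c, ν θ a)` of `F` -/
def Crd.Dg {Ω : Type*} [Group Ω] {S : Subgroup Ω} {F : FusionSystem S} {K : Type} [Field K]
    {σ : K ≃+* K} (C : Crd F K σ) (θ : K ≃+* K) (μ ν : K) : Prop := C.Gam θ μ 0 0 ν

end Cfsg.Agent.H770.Hen
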