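import Cfsg.Agent.H770.Hen.Fus
import Cfsg.Agent.H802.FusNormalSub

/-!
# S5175, sections L and J3: extension of diagonal maps (helper770)
-/

set_option autoImplicit false

namespace Cfsg.Agent.H770.Hen

open Cfsg Cfsg.FusionSystem Cfsg.Agent.H802

/-- The fusion system data on the coordinates. -/
structure FSys {Ω : Type*} [Group Ω] {S : Subgroup Ω} (F : FusionSystem S) {K : Type} [Field K]
    {σ : K ≃+* K} (R : Rel Ω K σ) : Prop where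
  S_eq : S = R.Sg
  lin : ∀ p q r s : K, p * s - q * r = 1 → ∃ φ ∈ F.Hom R.Vg, ∀ (a c : K) (h : R.e a 0 c ∈ R.Vg),
    φ ⟨R.e a 0 c, h⟩ = R.e (r * c + s * a) 0 (p * c + q * a)
  semi : ∀ φ ∈ F.Hom R.Vg, (∀ v : R.Vg, φ v ∈ R.Vg) → ∃ (θ : K ≃+* K) (p q r s : K), p * s - q * r ≠ 0 ∧
    ∀ (a c : K) (h : R.e a 0 c ∈ R.Vg),
      φ ⟨R.e a 0 c, h⟩ = R.e (r * θ c + s * θ a) 0 (p * θ c + q * θ a)

namespace FSys

variable {Ω : Type*} [Group Ω] {S : Subgroup Ω} {F : FusionSystem S} {K : Type} [Field K]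
  {σ : K ≃+* K} {R : Rel Ω K σ}

section basic

variable (D : FSys F R)

include D

theorem T_le : R.T ≤ S := D.S_eq ▸ R.T_le_Sg
theorem V_le : R.Vg ≤ S := R.Vg_le_T.trans D.T_le
theorem W_le : R.Wg ≤ S := R.Wg_le_T.trans D.T_le
theorem Z_le : R.Zg ≤ S := R.Zg_le_Vg.trans D.V_le
theorem y_mem : R.y ∈ S := D.S_eq ▸ R.y_mem_Sg

theorem fin [Finite K] : Finite S := by
  rw [D.S_eq]; exact R.finite_Sg

/-- the conjugates of `V` are `V` and `V'` -/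
theorem conj_V [Finite K] (hq : 4 ≤ Nat.card K) {Q : Subgroup Ω} (h : F.IsConj R.Vg Q) :
    Q = R.Vg ∨ Q = R.Wg := by
  have hc := isConj_card_eq h
  rw [R.card_Vg] at hc
  have hle := isConj_le_right h
  obtain ⟨φ, hφ, rfl⟩ := h
  refine R.el_eq hq (D.S_eq ▸ hle) ?_ hc.le
  rintro _ ⟨v, rfl⟩
  rw [← map_pow]
  have : v ^ 2 = 1 := Subtype.ext (R.sq_Vg v.2)
  rw [this, map_one]

theorem norV : normalizerIn S R.Vg = R.T := by rw [D.S_eq]; exact R.normalizerIn_Vg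
theorem norW : normalizerIn S R.Wg = R.T := by rw [D.S_eq]; exact R.normalizerIn_Wg

theorem fnV [Finite K] (hq : 4 ≤ Nat.card K) : F.IsFullyNormalized R.Vg := by
  refine ⟨D.V_le, fun Q hQ => ?_⟩
  rcases D.conj_V hq hQ with rfl | rfl
  · exact le_rfl
  · rw [D.norV, D.norW]

theorem centV : centralizerIn S R.Vg = R.Vg := by
  apply le_antisymm
  · rintro x ⟨h1, h2⟩
    have h3 : x ∈ R.Sg := by rw [← D.S_eq]; exact h1
    exact R.mem_Vg_of_comm h3 fun v hv => (Subgroup.mem_centralizer_iff.1 h2 v hv).symm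
  · intro x hx
    exact ⟨D.V_le hx, Subgroup.mem_centralizer_iff.2 fun v hv => R.Vg_comm hv hx⟩

theorem centW : centralizerIn S R.Wg = R.Wg := by
  apply le_antisymm
  · rintro x ⟨h1, h2⟩
    have h3 : x ∈ R.Sg := by rw [← D.S_eq]; exact h1
    exact R.mem_Wg_of_comm h3 fun v hv => (Subgroup.mem_centralizer_iff.1 h2 v hv).symm
  · intro x hx
    exact ⟨D.W_le hx, Subgroup.mem_centralizer_iff.2 fun v hv => R.Wg_comm hv hx⟩

theorem cenV [Finite K] (hq : 4 ≤ Nat.card K) : F.IsCentric R.Vg := by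
  refine ⟨D.V_le, fun Q hQ => ?_⟩
  rcases D.conj_V hq hQ with rfl | rfl
  · exact D.centV.le
  · exact D.centW.le

theorem cenT [Finite K] (hq : 4 ≤ Nat.card K) : F.IsCentric R.T :=
  isCentric_of_le (D.cenV hq) R.Vg_le_T D.T_le

theorem fnT [Finite K] : F.IsFullyNormalized R.T := by
  have := D.fin
  refine ⟨D.T_le, fun Q _ => ?_⟩
  have h1 : normalizerIn S R.T = S := by
    apply le_antisymm inf_le_left
    intro x hx
    refine ⟨hx, ?_⟩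
    have h2 : x ∈ R.Sg := by rw [← D.S_eq]; exact hx
    refine Subgroup.mem_normalizer_iff.2 fun t => ?_
    obtain ⟨a, b, c, rfl | rfl⟩ := h2
    · constructor
      · rintro ⟨a', b', c', rfl⟩
        rw [R.e_conj]
        exact R.e_mem_T _ _ _
      · rintro ⟨a', b', c', h⟩
        have h1 : t = (R.e a b c)⁻¹ * R.e a' b' c' * ((R.e a b c)⁻¹)⁻¹ := by rw [← h]; group
        rw [h1, R.e_inv, R.e_conj]
        exact R.e_mem_T _ _ _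
    · constructor
      · rintro ⟨a', b', c', rfl⟩
        rw [R.ey_conj]
        exact R.e_mem_T _ _ _
      · rintro ⟨a', b', c', h⟩
        have h1 : t = R.y⁻¹ * ((R.e a b c)⁻¹ * R.e a' b' c' * ((R.e a b c)⁻¹)⁻¹) * R.y := by rw [← h]; group
        rw [h1, R.e_inv, R.e_conj, R.y_inv_e]
        exact R.e_mem_T _ _ _
  rw [h1]
  exact Subgroup.card_le_of_le inf_le_left

/-- the automorphisms of `V'` in `F` are semilinear -/
theorem semiW : ∀ φ ∈ F.Hom R.Wg, (∀ v : R.Wg, φ v ∈ R.Wg) →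
    ∃ (θ : K ≃+* K) (p q r s : K), p * s - q * r ≠ 0 ∧ ∀ (b c : K) (h : R.e 0 b c ∈ R.Wg),
      φ ⟨R.e 0 b c, h⟩ = R.e 0 (r * θ c + s * θ b) (p * θ c + q * θ b) := by
  intro φ hφ hφW
  have hyinv : R.y⁻¹ ∈ S := S.inv_mem D.y_mem
  have h1 : ∀ v : R.Vg, conjHom R.Vg R.y⁻¹ v ∈ R.Wg := by
    rintro ⟨v, hv⟩
    obtain ⟨a, c, rfl⟩ := R.mem_Vg.1 hv
    show R.y⁻¹ * R.e a 0 c * R.y⁻¹⁻¹ ∈ R.Wg
    rw [inv_inv, R.y_inv_e, map_zero]
    exact R.e_mem_W _ _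
  obtain ⟨χ, hχ, hχe⟩ := exists_comp (F.conj_mem (g := R.y⁻¹) D.V_le hyinv) hφ h1
  have h2 : ∀ v : R.Vg, χ v ∈ R.Wg := fun v => by rw [hχe]; exact hφW _
  obtain ⟨ξ, hξ, hξe⟩ := exists_comp hχ (F.conj_mem (g := R.y) D.W_le D.y_mem) h2
  have hξe' : ∀ a c (h : R.e a 0 c ∈ R.Vg) (h' : R.e 0 (σ a) (σ c) ∈ R.Wg),
      ξ ⟨R.e a 0 c, h⟩ = R.y * φ ⟨R.e 0 (σ a) (σ c), h'⟩ * R.y⁻¹ := by
    intro a c h h'
    rw [hξe]
    show R.y * χ ⟨R.e a 0 c, h⟩ * R.y⁻¹ = _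
    rw [hχe]
    congr 3
    apply Subtype.ext
    show R.y⁻¹ * R.e a 0 c * R.y⁻¹⁻¹ = R.e 0 (σ a) (σ c)
    rw [inv_inv, R.y_inv_e, map_zero, mul_zero, add_zero]
  have h3 : ∀ v : R.Vg, ξ v ∈ R.Vg := by
    rintro ⟨v, hv⟩
    obtain ⟨a, c, rfl⟩ := R.mem_Vg.1 hv
    rw [hξe' a c hv (R.e_mem_W _ _)]
    obtain ⟨b', c', h4⟩ := R.mem_Wg.1 (hφW ⟨R.e 0 (σ a) (σ c), R.e_mem_W _ _⟩)
    rw [h4, R.y_e, map_zero]
    exact R.e_mem_V _ _
  obtain ⟨θ, p, q, r, s, hd, h5⟩ := D.semi ξ hξ h3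
  refine ⟨(σ.trans θ).trans σ, σ p, σ q, σ r, σ s, ?_, ?_⟩
  · rw [← map_mul, ← map_mul, ← map_sub]
    exact fun h => hd ((map_eq_zero σ).1 h)
  · intro b c h
    have h6 := hξe' (σ b) (σ c) (R.e_mem_V _ _) (by rw [R.sig, R.sig]; exact h)
    rw [h5] at h6
    have h7 : φ ⟨R.e 0 (σ (σ b)) (σ (σ c)), by rw [R.sig, R.sig]; exact h⟩ = φ ⟨R.e 0 b c, h⟩ := by
      congr 1
      apply Subtype.ext
      show R.e 0 (σ (σ b)) (σ (σ c)) = R.e 0 b c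
      rw [R.sig, R.sig]
    rw [h7] at h6
    have h8 : φ ⟨R.e 0 b c, h⟩ = R.y⁻¹ * (R.y * φ ⟨R.e 0 b c, h⟩ * R.y⁻¹) * R.y := by group
    rw [h8, ← h6, R.y_inv_e]
    simp only [map_zero, mul_zero, add_zero, map_add, map_mul, RingEquiv.trans_apply]

end basic

/-- **Diagonal semilinear maps on `V` extend to `T`.** -/
theorem diagExt [Finite K] (D : FSys F R) (hq : 4 ≤ Nat.card K) (hS : IsPGroup 2 S) (hF : F.IsSaturated 2)
    {φ₀ : R.Vg →* Ω} (hφ₀ : φ₀ ∈ F.Hom R.Vg) {θ : K ≃+* K} {μ ν : K} (hμ : μ ≠ 0) (hν : ν ≠ 0)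
    (h₀ : ∀ (a c : K) (h : R.e a 0 c ∈ R.Vg), φ₀ ⟨R.e a 0 c, h⟩ = R.e (ν * θ a) 0 (μ * θ c)) :
    ∃ φ ∈ F.Hom R.T, ∀ (a b c : K) (h : R.e a b c ∈ R.T),
      φ ⟨R.e a b c, h⟩ = R.e (ν * θ a) (μ / ν * θ b) (μ * θ c) := by
  have hfin := D.fin
  have hfp : Fact (Nat.Prime 2) := ⟨Nat.prime_two⟩
  have hfinV := R.finite_Vg
  have hfinW := R.finite_Wg
  have hφV : ∀ v : R.Vg, φ₀ v ∈ R.Vg := by
    rintro ⟨v, hv⟩
    obtain ⟨a, c, rfl⟩ := R.mem_Vg.1 hv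
    rw [h₀]; exact R.e_mem_V _ _
  have hrange : φ₀.range = R.Vg := range_eq_of_mapsTo hφ₀ hφV
  obtain ⟨ψ, hψ, hψe⟩ := (isReceptive_of_isFullyNormalized hS hF (D.fnV hq)).2 _ φ₀ hφ₀ hrange
  have hTN : R.T ≤ extender S R.Vg φ₀ := by
    intro t ht
    rw [mem_extender_iff]
    refine ⟨D.T_le ht, ?_, ?_⟩
    · rw [← D.norV] at ht
      exact ht.2
    · obtain ⟨a, b, c, rfl⟩ := R.mem_T.1 ht
      refine ⟨R.e 0 (μ / ν * θ b) 0, D.T_le (R.e_mem_T _ _ _), ?_⟩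
      rintro ⟨v, hv⟩ hx
      obtain ⟨a', c', rfl⟩ := R.mem_Vg.1 hv
      have h1 : (⟨R.e a b c * R.e a' 0 c' * (R.e a b c)⁻¹, hx⟩ : R.Vg) =
          ⟨R.e a' 0 (c' + a * 0 - a' * b), R.e_mem_V _ _⟩ := Subtype.ext (R.e_conj _ _ _ _ _ _)
      rw [h1, h₀, h₀, R.e_conj]
      congr 1
      rw [map_sub, map_add, map_mul, map_mul, map_zero]
      field_simp
      ring
  -- restrict to T
  set ψT := ψ.comp (Subgroup.inclusion hTN) with hψT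
  have hψTm : ψT ∈ F.Hom R.T := restrict_mem hψ hTN
  have hψTe : ∀ a c (h : R.e a 0 c ∈ R.T), ψT ⟨R.e a 0 c, h⟩ = R.e (ν * θ a) 0 (μ * θ c) := by
    intro a c h
    rw [← h₀ a c (R.e_mem_V _ _)]
    exact hψe _ _ _
  -- image of wb b
  have hconj : ∀ b : K, ∀ a' c' : K, ψT ⟨R.e 0 b 0, R.e_mem_T _ _ _⟩ * R.e (ν * θ a') 0 (μ * θ c') *
      (ψT ⟨R.e 0 b 0, R.e_mem_T _ _ _⟩)⁻¹ = R.e (ν * θ a') 0 (μ * θ (c' - a' * b)) := by
    intro b a' c'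
    rw [← hψTe a' c' (R.e_mem_T _ _ _), ← map_mul, ← map_inv, ← map_mul, ← hψTe a' _ (R.e_mem_T _ _ _)]
    congr 1
    apply Subtype.ext
    show R.e 0 b 0 * R.e a' 0 c' * (R.e 0 b 0)⁻¹ = _
    rw [R.e_conj]
    congr 1
    ring
  have hnor : ∀ b : K, ψT ⟨R.e 0 b 0, R.e_mem_T _ _ _⟩ ∈ R.T := by
    intro b
    suffices hs : ψT ⟨R.e 0 b 0, R.e_mem_T _ _ _⟩ ∈ normalizerIn S R.Vg by
      have h1 := D.norV.le hs
      exact h1
    refine ⟨hom_apply_mem hψTm _, ?_⟩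
    refine mem_normalizer_of_conj_mem D.V_le (fun v hv => ?_)
    obtain ⟨a', c', rfl⟩ := R.mem_Vg.1 hv
    have h1 := hconj b (θ.symm (ν⁻¹ * a')) (θ.symm (μ⁻¹ * c'))
    rw [θ.apply_symm_apply, θ.apply_symm_apply, mul_inv_cancel_left₀ hν, mul_inv_cancel_left₀ hμ] at h1
    rw [h1]
    exact R.e_mem_V _ _
  have hwb : ∀ b : K, ∃ c1 : K, ψT ⟨R.e 0 b 0, R.e_mem_T _ _ _⟩ = R.e 0 (μ / ν * θ b) c1 := by
    intro b
    obtain ⟨a1, b1, c1, h1⟩ := R.mem_T.1 (hnor b)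
    have h2 := hconj b (θ.symm (ν⁻¹ * 1)) 0
    rw [θ.apply_symm_apply, mul_inv_cancel_left₀ hν, h1, R.e_conj] at h2
    have h3 := (R.e_inj h2).2.2
    rw [map_sub, map_mul, θ.apply_symm_apply, map_zero] at h3
    have hb1 : b1 = μ / ν * θ b := by
      field_simp
      field_simp at h3
      linear_combination -h3
    have hsq : ψT ⟨R.e 0 b 0, R.e_mem_T _ _ _⟩ ^ 2 = 1 := by
      rw [← map_pow]
      have : (⟨R.e 0 b 0, R.e_mem_T _ _ _⟩ : R.T) ^ 2 = 1 := Subtype.ext (R.sq_Wg (R.e_mem_W b 0))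
      rw [this, map_one]
    rw [h1] at hsq
    rcases R.e_sq_eq_one hsq with h4 | h4
    · exact ⟨c1, by rw [h1, h4, hb1]⟩
    · -- b1 = 0 so b = 0
      have h5 : b = 0 := by
        rw [hb1] at h4
        rcases mul_eq_zero.1 h4 with h5 | h5
        · exact absurd h5 (div_ne_zero hμ hν)
        · exact (map_eq_zero θ).1 h5
      subst h5
      refine ⟨0, ?_⟩
      have h6 : (⟨R.e 0 0 0, R.e_mem_T _ _ _⟩ : R.T) = 1 := Subtype.ext R.e_zero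
      rw [h6, map_one, map_zero, mul_zero, R.e_zero]
  -- restriction to W
  set ψW := ψT.comp (Subgroup.inclusion R.Wg_le_T) with hψW
  have hψWm : ψW ∈ F.Hom R.Wg := restrict_mem hψTm R.Wg_le_T
  have hψWe : ∀ b c (h : R.e 0 b c ∈ R.Wg), ∃ c1, ψW ⟨R.e 0 b c, h⟩ = R.e 0 (μ / ν * θ b) (c1 + μ * θ c) ∧
      ψT ⟨R.e 0 b 0, R.e_mem_T _ _ _⟩ = R.e 0 (μ / ν * θ b) c1 := by
    intro b c h
    obtain ⟨c1, h1⟩ := hwb b
    refine ⟨c1, ?_, h1⟩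
    have h2 : ψW ⟨R.e 0 b c, h⟩ = ψT ⟨R.e 0 b 0, R.e_mem_T _ _ _⟩ * ψT ⟨R.e 0 0 c, R.e_mem_T _ _ _⟩ := by
      rw [← map_mul]
      show ψT _ = _
      congr 1
      apply Subtype.ext
      show R.e 0 b c = R.e 0 b 0 * R.e 0 0 c
      rw [R.e_mul]
      congr 1 <;> ring
    rw [h2, h1, hψTe, R.e_mul]
    congr 1 <;> simp
  have hψWW : ∀ v : R.Wg, ψW v ∈ R.Wg := by
    rintro ⟨v, hv⟩
    obtain ⟨b, c, rfl⟩ := R.mem_Wg.1 hv
    obtain ⟨c1, h1, -⟩ := hψWe b c hv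
    rw [h1]; exact R.e_mem_W _ _
  obtain ⟨θ', p, q, r, s, -, hsemi⟩ := D.semiW ψW hψWm hψWW
  -- compare
  have hZ : ∀ c, μ * θ c = p * θ' c ∧ r * θ' c = 0 := by
    intro c
    have h1 := hsemi 0 c (R.e_mem_W _ _)
    have h2 : ψW ⟨R.e 0 0 c, R.e_mem_W _ _⟩ = R.e (ν * θ 0) 0 (μ * θ c) := hψTe 0 c _
    rw [h2] at h1
    obtain ⟨-, h3, h4⟩ := R.e_inj h1
    rw [map_zero, mul_zero, add_zero] at h3 h4
    exact ⟨h4, h3.symm⟩
  have hp : μ = p := by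
    have := (hZ 1).1
    rwa [map_one, map_one, mul_one, mul_one] at this
  have hr : r = 0 := by
    have := (hZ 1).2
    rwa [map_one, mul_one] at this
  have hθ : ∀ c, θ' c = θ c := by
    intro c
    have h1 := (hZ c).1
    rw [← hp] at h1
    exact (mul_left_cancel₀ hμ h1).symm
  have hc1 : ∀ b, ψT ⟨R.e 0 b 0, R.e_mem_T _ _ _⟩ = R.e 0 (μ / ν * θ b) (q * θ b) := by
    intro b
    have h1 := hsemi b 0 (R.e_mem_W _ _)
    obtain ⟨c1, h2, h3⟩ := hψWe b 0 (R.e_mem_W _ _)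
    rw [h2] at h1
    have h4 := (R.e_inj h1).2.2
    rw [map_zero, map_zero, mul_zero, mul_zero, add_zero, zero_add, hθ] at h4
    rw [h3, h4]
  have hall : ∀ a b c (h : R.e a b c ∈ R.T), ψT ⟨R.e a b c, h⟩ =
      R.e (ν * θ a) (μ / ν * θ b) (μ * θ c + q * θ b) := by
    intro a b c h
    have h1 : ψT ⟨R.e a b c, h⟩ = ψT ⟨R.e 0 b 0, R.e_mem_T _ _ _⟩ * ψT ⟨R.e a 0 c, R.e_mem_T _ _ _⟩ := by
      rw [← map_mul]
      congr 1
      apply Subtype.ext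
      show R.e a b c = R.e 0 b 0 * R.e a 0 c
      rw [R.e_mul]
      congr 1 <;> ring
    rw [h1, hc1, hψTe, R.e_mul]
    congr 1 <;> ring
  -- correct by an inner automorphism
  have hT2 : ∀ v : R.T, ψT v ∈ R.T := by
    rintro ⟨v, hv⟩
    obtain ⟨a, b, c, rfl⟩ := R.mem_T.1 hv
    rw [hall]; exact R.e_mem_T _ _ _
  obtain ⟨φ, hφ, hφe⟩ := exists_comp hψTm (F.conj_mem (g := R.e (q * ν / μ) 0 0) D.T_le
    (D.T_le (R.e_mem_T _ _ _))) hT2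
  refine ⟨φ, hφ, ?_⟩
  intro a b c h
  rw [hφe]
  show R.e (q * ν / μ) 0 0 * ψT ⟨R.e a b c, h⟩ * (R.e (q * ν / μ) 0 0)⁻¹ = _
  rw [hall, R.e_conj]
  congr 1
  field_simp
  linear_combination R.two (q * θ b)

end FSys

end Cfsg.Agent.H770.Hen
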