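import Cfsg.Agent.H770.Hen.JTr
import Cfsg.Agent.H442.J3F.JB
import Cfsg.Agent.H124.SP.BigTF
import Cfsg.Agent.H124.J3.JU
import Cfsg.Agent.H745.J3E.Glue

/-!
# S5175, the case J3: the end (helper770)
-/

set_option autoImplicit false

namespace Cfsg.Agent.H770.Hen

open Cfsg Cfsg.FusionSystem Cfsg.Agent.H802 Cfsg.Agent.H756.HM Cfsg.Agent.H781

universe u

theorem Rel.card_Sg {Ω : Type*} [Group Ω] {K : Type} [Field K] {σ : K ≃+* K} (R : Rel Ω K σ) :
    Nat.card R.Sg = 2 * (Nat.card K * (Nat.card K * Nat.card K)) := by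
  have h2 : Nat.card Bool = 2 := by simp
  rw [← h2, ← Nat.card_prod, ← Nat.card_prod, ← Nat.card_prod]
  refine (Nat.card_congr (Equiv.ofBijective (fun t : Bool × K × K × K =>
    (⟨if t.1 then R.e t.2.1 t.2.2.1 t.2.2.2 else R.e t.2.1 t.2.2.1 t.2.2.2 * R.y, ?_⟩ : R.Sg)) ⟨?_, ?_⟩)).symm
  · split_ifs
    · exact ⟨_, _, _, Or.inl rfl⟩
    · exact ⟨_, _, _, Or.inr rfl⟩
  · rintro ⟨i, a, b, c⟩ ⟨i', a', b', c'⟩ h
    have h1 := congrArg Subtype.val h
    cases i <;> cases i' <;> simp only [Bool.false_eq_true, if_false, if_true] at h1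
    · obtain ⟨h3, h5, h4⟩ := R.e_inj (mul_right_cancel h1)
      rw [h3, h4, h5]
    · exact absurd h1 (R.e_mul_y_ne _ _ _ _ _ _)
    · exact absurd h1.symm (R.e_mul_y_ne _ _ _ _ _ _)
    · obtain ⟨h3, h5, h4⟩ := R.e_inj h1
      rw [h3, h4, h5]
  · rintro ⟨x, hx⟩
    obtain ⟨a, b, c, h | h⟩ := R.mem_Sg.1 hx
    · exact ⟨(true, a, b, c), Subtype.ext (by simp [h])⟩
    · exact ⟨(false, a, b, c), Subtype.ext (by simp [h])⟩

/-- `R₀` is essential in each saturated system with the same automizer of `R₀`. -/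
theorem ess_of_eq {Ω : Type*} [Group Ω] {K : Type} [Field K] {σ : K ≃+* K} {R : Rel Ω K σ} [Finite R.Sg]
    (hS : IsPGroup 2 R.Sg) {F F' : FusionSystem R.Sg} (hF' : F'.IsSaturated 2)
    (hA : F.autGroup R.R0 = F'.autGroup R.R0) (hE : F.IsEssential 2 R.R0) : F'.IsEssential 2 R.R0 := by
  have : Fact (Nat.Prime 2) := ⟨Nat.prime_two⟩
  obtain ⟨hc, hn, h3⟩ := hE
  have hN : normalizerIn R.Sg R.R0 = R.Sg := by
    apply le_antisymm inf_le_left
    intro s hs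
    refine ⟨hs, Subgroup.mem_normalizer_iff.2 fun x => ⟨fun hx => H442.J3F.JB.R0_conj R hs hx, fun hx => ?_⟩⟩
    have h1 := H442.J3F.JB.R0_conj R (R.Sg.inv_mem hs) hx
    have h2 : s⁻¹ * (s * x * s⁻¹) * s⁻¹⁻¹ = x := by group
    rwa [h2] at h1
  have hn' : F'.IsFullyNormalized R.R0 := by
    refine ⟨R.R0_le_Sg, fun Q _ => ?_⟩
    rw [hN]
    exact Nat.card_le_card_of_injective (Subgroup.inclusion inf_le_left) (Subgroup.inclusion_injective _)
  refine ⟨isCentric_of_isFullyCentralized (isFullyCentralized_of_isFullyNormalized hS hF' hn') ?_, hn', ?_⟩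
  · exact hc.2 _ ⟨R.R0.subtype, subtype_mem F R.R0_le_Sg, Subgroup.range_subtype _⟩
  · rw [hA] at h3
    exact h3

theorem autGroup_V_le (hJB : StJB.{u}) {Ω : Type u} [Group Ω] {S : Subgroup Ω} [Finite S] (hS : IsPGroup 2 S)
    {F F' : FusionSystem S} (hF : F.IsSaturated 2) (hF' : F'.IsSaturated 2) {K : Type} [Field K] [Fintype K]
    {σ : K ≃+* K} {R : Rel Ω K σ} (D : JSys F R) (D' : JSys F' R)
    (hA : F.autGroup R.R0 = pResidual 2 (MulAut R.R0)) (hA' : F'.autGroup R.R0 = pResidual 2 (MulAut R.R0)) :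
    F.autGroup R.Vg ≤ F'.autGroup R.Vg := by
  intro α hα
  rw [mem_autGroup_iff F D.fs.V_le] at hα
  rw [mem_autGroup_iff F' D.fs.V_le]
  obtain ⟨p, q, r, s, hd, h1⟩ := (hJB hS F hF K σ R D hA).2 _ hα (fun v => (α v).2)
  obtain ⟨φ, hφ, h2⟩ := (hJB hS F' hF' K σ R D' hA').1 p q r s hd
  have h3 : R.Vg.subtype.comp α.toMonoidHom = φ := by
    ext v
    obtain ⟨v, hv⟩ := v
    obtain ⟨a, c, rfl⟩ := R.mem_Vg.1 hv
    rw [h1 a c hv, h2 a c hv]
  rw [h3]
  exact hφ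

/-- **The case J3**, given the automizer of `R₀`. -/
theorem stJ_of (hJA : StJA.{u}) (hJB : StJB.{u}) (hJU : StJU.{u}) (hEss : StEss.{u}) (hEssT : StEssT.{u}) :
    StJ.{u} := by
  rintro Ω _ S _ hS F hF K _ _ V T x B hK hD ⟨R₁, hR1, hR1T⟩
  have : Fact (Nat.Prime 2) := ⟨Nat.prime_two⟩
  obtain ⟨σ, R, D, hV, hW, hT, hcls⟩ := exists_jsys hEss hEssT hS F hF K V T x B hD R₁ hR1 hR1T
  -- the group J3
  obtain ⟨w, hw0, hw1⟩ := exists_omega hK
  have hw : w ^ 2 + w + 1 = 0 := by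
    rcases four_pow hK w with h7 | h7 | h7
    · exact absurd h7 hw0
    · exact absurd h7 hw1
    · linear_combination h7 + R.two w + R.two 1
  obtain ⟨G, hgrp, hfin, hJ3⟩ : ∃ (G : Type u) (_ : Group G) (_ : Finite G), Spor.IsoJ3 G :=
    ⟨ULift.{u} (Spor.J3 K w), inferInstance, inferInstance, K, inferInstance, inferInstance, w, hK, hw,
      ⟨MulEquiv.ulift⟩⟩
  obtain ⟨S'⟩ : Nonempty (Sylow 2 G) := inferInstance
  obtain ⟨V', T', x', B', R₂, s, hfix, hJR, hR2T⟩ := H745.J3E.j3_side hJ3 S' hK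
  have hF' := groupFusionSystem_isSaturated S'
  obtain ⟨σ', R', D', -, -, -, -⟩ := exists_jsys hEss hEssT S'.isPGroup' (groupFusionSystem (S' : Subgroup G)) hF'
    K V' T' x' B' hfix R₂ hJR.ess hR2T
  have hσ : σ' = σ := RingEquiv.ext fun a => by rw [D'.frob, D.frob]
  subst hσ
  have hA' := hJA S'.isPGroup' (groupFusionSystem (S' : Subgroup G)) hF' K σ' R' D'
  have hS' : (S' : Subgroup G) = R'.Sg := D'.fs.S_eq
  have hA := hJA hS F hF K σ' R D
  obtain ⟨ι, hι, hr, he, hey⟩ := R.exists_iso R' D.y_sq D'.y_sq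
  have hfs' := D'.fs
  rw [hS'] at hA' hfs'
  have hSe := D.fs.S_eq
  subst hSe
  have hreal := pullback_isRealizedBy ι hι
  have hF'' : (pullback ι hι).IsSaturated 2 := isSaturated_of_isRealizedBy hreal S' (hS'.trans hr.symm)
  have hA'' := autGroup_R0_pullback hι hr he hey hA'
  have D'' : JSys (pullback ι hι) R := ⟨fsys_pullback hι hr he hey hfs', hK, D.frob, D.y_sq,
    ess_of_eq hS hF'' (hA.trans hA''.symm) D.ess⟩
  have hVV : F.autGroup R.Vg = (pullback ι hι).autGroup R.Vg :=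
    le_antisymm (autGroup_V_le hJB hS hF hF'' D D'' hA hA'') (autGroup_V_le hJB hS hF'' hF D'' D hA'' hA)
  have hAA : F.autGroup R.R0 = (pullback ι hι).autGroup R.R0 := hA.trans hA''.symm
  have hcls'' : ∀ Q : Subgroup Ω, (pullback ι hι).IsEssential 2 Q → Q = R.Vg ∨ Q = R.Wg ∨ Q = R.T ∨ Q = R.R0 := by
    intro Q hQ
    have hVV' : F.autGroup V = (pullback ι hι).autGroup V := by rw [hV]; exact hVV
    by_cases hQT : Q ≤ T
    · rcases hEssT hS _ hF'' K V T x (H124.SP.bigTransport B _ hVV') Q hQ hQT with h | h | h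
      · exact Or.inl (h.trans hV)
      · exact Or.inr (Or.inl (h.trans hW))
      · exact Or.inr (Or.inr (Or.inl (h.trans hT)))
    · exact Or.inr (Or.inr (Or.inr (eq_R0 hEss hS hF'' (H124.SP.bigTransport B _ hVV') rfl hT hV hW D.frob D.y_sq
        hQ hQT)))
  have hFF : F = pullback ι hι := ext_of_le
    (hJU hS F _ hF hF'' K σ' R D D'' hVV hAA hcls)
    (hJU hS _ F hF'' hF K σ' R D'' D hVV.symm hAA.symm hcls'')
  refine ⟨G, hgrp, hfin, ι, hFF ▸ hreal, ⟨S', hS'.trans hr.symm⟩, Or.inr (Or.inr (Or.inr (Or.inr (Or.inl ⟨?_, hJ3⟩))))⟩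
  rw [R.card_Sg, Nat.card_eq_fintype_card, hK]
  norm_num

end Cfsg.Agent.H770.Hen
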