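import Cfsg.Agent.H770.Hen.JMk2
import Cfsg.Agent.H781.Transport

/-!
# S5175, the case J3: isomorphism of the 2-groups and transport (helper770)
-/

set_option autoImplicit false

namespace Cfsg.Agent.H770.Hen

open Cfsg Cfsg.FusionSystem Cfsg.Agent.H802 Cfsg.Agent.H756.HM Cfsg.Agent.H781

namespace Rel

variable {Ω Ω' : Type*} [Group Ω] [Group Ω'] {K : Type} [Field K] {σ : K ≃+* K} (R : Rel Ω K σ) (R' : Rel Ω' K σ)

theorem exists_par (s : R.Sg) : ∃ (i : Bool) (t : K × K × K),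
    (s : Ω) = R.e t.1 t.2.1 t.2.2 * (if i then 1 else R.y) := by
  obtain ⟨_, a, b, c, rfl | rfl⟩ := s
  · exact ⟨true, (a, b, c), by simp⟩
  · exact ⟨false, (a, b, c), by simp⟩

/-- The isomorphism of the groups given by coordinates with `y² = 1`. -/
theorem exists_iso (hy : R.y * R.y = 1) (hy' : R'.y * R'.y = 1) : ∃ ι : R.Sg →* Ω', Function.Injective ι ∧
    ι.range = R'.Sg ∧ (∀ a b c (h : R.e a b c ∈ R.Sg), ι ⟨R.e a b c, h⟩ = R'.e a b c) ∧
    (∀ a b c (h : R.e a b c * R.y ∈ R.Sg), ι ⟨R.e a b c * R.y, h⟩ = R'.e a b c * R'.y) := by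
  choose i t hit using R.exists_par
  set f : R.Sg → Ω' := fun s => R'.e (t s).1 (t s).2.1 (t s).2.2 * (if i s then 1 else R'.y) with hf
  have he : ∀ a b c (h : R.e a b c ∈ R.Sg), f ⟨R.e a b c, h⟩ = R'.e a b c := by
    intro a b c h
    have h1 := hit ⟨R.e a b c, h⟩
    have h2 : i ⟨R.e a b c, h⟩ = true := by
      by_contra h3
      rw [if_neg h3] at h1
      exact R.e_mul_y_ne _ _ _ _ _ _ h1.symm
    rw [h2, if_pos rfl, mul_one] at h1
    obtain ⟨h3, h4, h5⟩ := R.e_inj h1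
    simp only [hf]
    rw [h2, if_pos rfl, mul_one, ← h3, ← h4, ← h5]
  have hey : ∀ a b c (h : R.e a b c * R.y ∈ R.Sg), f ⟨R.e a b c * R.y, h⟩ = R'.e a b c * R'.y := by
    intro a b c h
    have h1 := hit ⟨R.e a b c * R.y, h⟩
    have h2 : i ⟨R.e a b c * R.y, h⟩ = false := by
      by_contra h3
      rw [Bool.not_eq_false] at h3
      rw [if_pos h3, mul_one] at h1
      exact R.e_mul_y_ne _ _ _ _ _ _ h1
    rw [h2, if_neg (by decide)] at h1
    obtain ⟨h3, h4, h5⟩ := R.e_inj (mul_right_cancel h1)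
    simp only [hf]
    rw [h2, if_neg (by decide), ← h3, ← h4, ← h5]
  have hf1 : ∀ s : R.Sg, ∀ a b c, (s : Ω) = R.e a b c → f s = R'.e a b c := by
    rintro ⟨s, hs⟩ a b c rfl
    exact he _ _ _ _
  have hf2 : ∀ s : R.Sg, ∀ a b c, (s : Ω) = R.e a b c * R.y → f s = R'.e a b c * R'.y := by
    rintro ⟨s, hs⟩ a b c rfl
    exact hey _ _ _ _
  have h3 : ∀ {X : Type _} [Group X] (R : Rel X K σ) (a b c a' b' c' : K), R.e a b c * R.y * R.e a' b' c' =
      R.e (a + σ b') (b + σ a') (c + σ (c' + a' * b') + a * σ a') * R.y := by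
    intro X _ R a b c a' b' c'
    have h2 : R.e a b c * R.y * R.e a' b' c' = R.e a b c * (R.y * R.e a' b' c' * R.y⁻¹) * R.y := by group
    rw [h2, R.y_e, R.e_mul]
  have h3' : ∀ {X : Type _} [Group X] (R : Rel X K σ) (a b c a' b' c' : K), R.e a b c * R.y * R.e a' b' c' =
      R.e (a + σ b') (b + σ a') (c + σ (c' + a' * b') + a * σ a') * R.y := by
    intro X _ R a b c a' b' c'
    have h2 : R.e a b c * R.y * R.e a' b' c' = R.e a b c * (R.y * R.e a' b' c' * R.y⁻¹) * R.y := by group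
    rw [h2, R.y_e, R.e_mul]
  have hmul : ∀ s s', f (s * s') = f s * f s' := by
    intro s s'
    obtain ⟨a, b, c, h | h⟩ := R.mem_Sg.1 s.2 <;> obtain ⟨a', b', c', h' | h'⟩ := R.mem_Sg.1 s'.2
    · rw [hf1 s _ _ _ h, hf1 s' _ _ _ h', R'.e_mul]
      apply hf1
      rw [Subgroup.coe_mul, h, h', R.e_mul]
    · rw [hf1 s _ _ _ h, hf2 s' _ _ _ h', ← mul_assoc, R'.e_mul]
      apply hf2
      rw [Subgroup.coe_mul, h, h', ← mul_assoc, R.e_mul]
    · rw [hf2 s _ _ _ h, hf1 s' _ _ _ h', h3' R']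
      apply hf2
      rw [Subgroup.coe_mul, h, h', h3 R]
    · rw [hf2 s _ _ _ h, hf2 s' _ _ _ h', ← mul_assoc, h3' R', mul_assoc, hy', mul_one]
      apply hf1
      rw [Subgroup.coe_mul, h, h', ← mul_assoc, h3 R, mul_assoc, hy, mul_one]
  refine ⟨MonoidHom.mk' f hmul, ?_, ?_, he, hey⟩
  · rw [injective_iff_map_eq_one]
    intro s hs
    have hs' : f s = 1 := hs
    obtain ⟨a, b, c, h | h⟩ := R.mem_Sg.1 s.2
    · rw [hf1 s _ _ _ h] at hs'
      obtain ⟨rfl, rfl, rfl⟩ := R'.e_eq_one hs'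
      exact Subtype.ext (h.trans R.e_zero)
    · rw [hf2 s _ _ _ h, ← R'.e_zero] at hs'
      exact absurd hs' (R'.e_mul_y_ne _ _ _ _ _ _)
  · ext z
    constructor
    · rintro ⟨⟨_, a, b, c, rfl | rfl⟩, rfl⟩
      · exact ⟨a, b, c, Or.inl (he _ _ _ _)⟩
      · exact ⟨a, b, c, Or.inr (hey _ _ _ _)⟩
    · rintro ⟨a, b, c, rfl | rfl⟩
      · exact ⟨⟨R.e a b c, ⟨a, b, c, Or.inl rfl⟩⟩, he _ _ _ _⟩
      · exact ⟨⟨R.e a b c * R.y, ⟨a, b, c, Or.inr rfl⟩⟩, hey _ _ _ _⟩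

end Rel

end Cfsg.Agent.H770.Hen
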